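import Mathlib
import Cfsg.Agent.Lib.Helper43.OMinusBal.Defs

/-!
# S2733, package P-W1: the Weyl step

No element of a set `M` of semilinear similarities (closed under composition, inverses and
conjugation by Siegel maps, all of whose elements have an odd iterate which is a scalar) moves a
singular vector to a non-orthogonal one.
-/

set_option autoImplicit false

namespace Cfsg.Agent.Lib.Helper21.OMinusBal

open Cfsg.Agent.Lib.Helper43.OMinusBal

universe u v

section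

variable {E : Type u} [Field E] {W : Type v} [AddCommGroup W] [Module E W]

/-- A non-isotropic vector orthogonal to a hyperbolic pair, in dimension at least three. -/
theorem exists_perp_nonisotropic [FiniteDimensional E W] (h2 : (2 : E) ≠ 0)
    (B : LinearMap.BilinForm E W) (hsym : ∀ x y, B x y = B y x)
    (hnd : ∀ x : W, (∀ y, B x y = 0) → x = 0) (hdim : 3 ≤ Module.finrank E W)
    {u u' : W} (hu : B u u = 0) (hu' : B u' u' = 0) (hβ : B u u' ≠ 0) :
    ∃ w, B w u = 0 ∧ B w u' = 0 ∧ B w w ≠ 0 := by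
  have hu'u : B u' u = B u u' := hsym _ _
  obtain ⟨w₀, hw₀ne, hw₀u, hw₀u'⟩ : ∃ w₀ : W, w₀ ≠ 0 ∧ B w₀ u = 0 ∧ B w₀ u' = 0 := by
    let f : W →ₗ[E] E × E := (B.flip u).prod (B.flip u')
    have h1 := LinearMap.finrank_range_add_finrank_ker f
    have h2' : Module.finrank E (LinearMap.range f) ≤ 2 := by
      calc Module.finrank E (LinearMap.range f) ≤ Module.finrank E (E × E) :=
            Submodule.finrank_le _
        _ = 2 := by simp
    have h3 : 0 < Module.finrank E (LinearMap.ker f) := by omega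
    obtain ⟨⟨w₀, hw₀⟩, hne⟩ := Module.finrank_pos_iff_exists_ne_zero.mp h3
    refine ⟨w₀, fun h => hne (Subtype.ext h), ?_, ?_⟩
    · have := congrArg Prod.fst (LinearMap.mem_ker.mp hw₀)
      simpa [f] using this
    · have := congrArg Prod.snd (LinearMap.mem_ker.mp hw₀)
      simpa [f] using this
  obtain ⟨y, hy⟩ : ∃ y, B w₀ y ≠ 0 := by
    by_contra hcon
    push Not at hcon
    exact hw₀ne (hnd w₀ hcon)
  have hy'u : B (y - (B y u' / B u u') • u - (B y u / B u u') • u') u = 0 := by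
    simp only [map_sub, map_smul, LinearMap.sub_apply, LinearMap.smul_apply, smul_eq_mul, hu,
      hu'u]
    field_simp
    ring
  have hy'u' : B (y - (B y u' / B u u') • u - (B y u / B u u') • u') u' = 0 := by
    simp only [map_sub, map_smul, LinearMap.sub_apply, LinearMap.smul_apply, smul_eq_mul, hu']
    field_simp
    ring
  have hw₀y' : B w₀ (y - (B y u' / B u u') • u - (B y u / B u u') • u') = B w₀ y := by
    simp only [map_sub, map_smul, smul_eq_mul, hw₀u, hw₀u']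
    ring
  obtain ⟨y', hy'⟩ : ∃ y', y' = y - (B y u' / B u u') • u - (B y u / B u u') • u' := ⟨_, rfl⟩
  rw [← hy'] at hy'u hy'u' hw₀y'
  by_cases hA : B w₀ w₀ = 0
  · by_cases hB : B y' y' = 0
    · refine ⟨w₀ + y', ?_, ?_, ?_⟩
      · rw [map_add, LinearMap.add_apply, hw₀u, hy'u, add_zero]
      · rw [map_add, LinearMap.add_apply, hw₀u', hy'u', add_zero]
      · intro h
        simp only [map_add, LinearMap.add_apply, hA, hB, hsym y' w₀, hw₀y'] at h
        apply hy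
        have h' : (2 : E) * B w₀ y = 0 := by linear_combination h
        exact (mul_eq_zero.mp h').resolve_left h2
    · exact ⟨y', hy'u, hy'u', hB⟩
  · exact ⟨w₀, hw₀u, hw₀u', hA⟩

/-- Odd iterates of a homogeneous map swapping two vectors up to inverse scalars. -/
theorem iterate_odd_swap (ρ : W → W) (hsm : ∀ (c : E) (x : W), ρ (c • x) = c • ρ x) {u u' : W}
    {c₁ c₂ : E} (h1 : ρ u = c₁ • u') (h2 : ρ u' = c₂ • u) (hc : c₁ * c₂ = 1) {n : ℕ}
    (hn : Odd n) : ρ^[n] u = c₁ • u' := by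
  have h2' : ρ (ρ u) = u := by rw [h1, hsm, h2, smul_smul, hc, one_smul]
  have hev : ∀ j : ℕ, ρ^[2 * j] u = u := by
    intro j
    induction j with
    | zero => rfl
    | succ j ih =>
      rw [show 2 * (j + 1) = 2 * j + 2 by ring, Function.iterate_add_apply]
      show ρ^[2 * j] (ρ (ρ u)) = u
      rw [h2', ih]
  obtain ⟨j, rfl⟩ := hn
  have h3 : ρ^[2 * j + 1] u = ρ (ρ^[2 * j] u) := Function.iterate_succ_apply' ρ (2 * j) u
  rw [h3, hev, h1]

/-- Iterates of `m₁ ∘ S(u, w₃)` with `m₁ ∈ M` are of the form `m ∘ S(u, w₃)^n` with `m ∈ M`. -/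
theorem iterate_mem (B : LinearMap.BilinForm E W) (hsym : ∀ x y, B x y = B y x)
    (h2 : (2 : E) ≠ 0) {M : Set (W → W)} (hM : MData B M) {u w₃ : W} (hu : B u u = 0)
    (huw : B u w₃ = 0) (ρ : W → W) (m₁ : W → W) (hm₁ : m₁ ∈ M)
    (hρ : ∀ x, ρ x = m₁ (siegel B u w₃ x)) (n : ℕ) :
    ∃ m ∈ M, ∀ x, ρ^[n + 1] x = m ((siegel B u w₃)^[n + 1] x) := by
  induction n with
  | zero => exact ⟨m₁, hm₁, fun x => hρ x⟩
  | succ n ih =>
    obtain ⟨m, hm, hmx⟩ := ih
    refine ⟨m₁ ∘ (siegel B u w₃ ∘ m ∘ siegel B u (-w₃)),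
      hM.mul _ hm₁ _ (hM.conj m hm u w₃ hu huw), fun x => ?_⟩
    have e1 : ρ^[n + 1 + 1] x = ρ (ρ^[n + 1] x) := Function.iterate_succ_apply' ρ (n + 1) x
    have e2 : (siegel B u w₃)^[n + 1 + 1] x = siegel B u w₃ ((siegel B u w₃)^[n + 1] x) :=
      Function.iterate_succ_apply' _ (n + 1) x
    rw [e1, e2, hmx, hρ]
    simp only [Function.comp_apply]
    rw [siegel_neg_cancel' B hsym h2 hu huw]

end

/-- **Package P-W1 of S2733**: the Weyl step. -/
theorem lemW1 : LemW1.{u, v} := by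
  intro E _ W _ _ _ r _ _ hr2 B hsym hnd hdim M hM hodd ψ hψ u hu
  by_contra hβ
  have h2 : (2 : E) ≠ 0 := two_ne_zero_of_charP r hr2
  obtain ⟨σ, μ, hμ, hadd, hsm, hB⟩ := hM.semi ψ hψ
  have hu' : B (ψ u) (ψ u) = 0 := by rw [hB, hu, map_zero, mul_zero]
  have hβ' : B u (ψ u) ≠ 0 := by rw [hsym]; exact hβ
  obtain ⟨w, hwu, hwu', hδ⟩ := exists_perp_nonisotropic h2 B hsym hnd hdim hu hu' hβ'
  have huw : B u w = 0 := by rw [hsym]; exact hwu
  have hu'w : B (ψ u) w = 0 := by rw [hsym]; exact hwu'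
  obtain ⟨ψ', hψ', hinv1, hinv2⟩ := hM.inv ψ hψ
  have hψψ' : ∀ x, ψ (ψ' x) = x := fun x => congrFun hinv1 x
  obtain ⟨v₂, hv₂⟩ : ∃ v₂, v₂ = ψ' (μ • w) := ⟨_, rfl⟩
  have hψv₂ : ψ v₂ = μ • w := by rw [hv₂]; exact hψψ' _
  have huv₂ : B u v₂ = 0 := by
    have h := hB u v₂
    rw [hψv₂, map_smul, smul_eq_mul, hu'w, mul_zero] at h
    have h' : σ (B u v₂) = 0 := (mul_eq_zero.mp h.symm).resolve_left hμ
    exact (map_eq_zero_iff σ σ.injective).mp h'
  obtain ⟨t, ht⟩ : ∃ t, t = (B w w / 2 * B u (ψ u))⁻¹ := ⟨_, rfl⟩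
  have hutw : B u (t • w) = 0 := by rw [map_smul, huw, smul_zero]
  have hu3 : B u (v₂ + t • w) = 0 := by rw [map_add, huv₂, hutw, add_zero]
  have hu4 : B u (t • w + (v₂ + t • w)) = 0 := by rw [map_add, hutw, hu3, add_zero]
  let ρ : W → W := fun x => siegel B u (t • w) (siegel B (ψ u) w (siegel B u (t • w) x))
  have hρsm : ∀ (c : E) (x : W), ρ (c • x) = c • ρ x := by
    intro c x
    show siegel B u (t • w) (siegel B (ψ u) w (siegel B u (t • w) (c • x))) =
      c • siegel B u (t • w) (siegel B (ψ u) w (siegel B u (t • w) x))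
    rw [siegel_smul, siegel_smul, siegel_smul]
  have hm₀ : ψ ∘ (siegel B u v₂ ∘ ψ' ∘ siegel B u (-v₂)) ∈ M :=
    hM.mul ψ hψ _ (hM.conj ψ' hψ' u v₂ hu huv₂)
  have hm₁ := hM.conj _ hm₀ u (t • w) hu hutw
  have hρ : ∀ x, ρ x = (siegel B u (t • w) ∘ (ψ ∘ (siegel B u v₂ ∘ ψ' ∘ siegel B u (-v₂))) ∘
      siegel B u (-(t • w))) (siegel B u (t • w + (v₂ + t • w)) x) := by
    intro x
    rw [← siegel_comp B hsym h2 hu hutw hu3, ← siegel_comp B hsym h2 hu huv₂ hutw]
    simp only [Function.comp_apply]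
    rw [siegel_neg_cancel' B hsym h2 hu hutw, siegel_neg_cancel' B hsym h2 hu huv₂,
      siegel_conj B ψ σ μ hμ hadd hsm hB, hψψ', hψv₂, smul_smul, inv_mul_cancel₀ hμ, one_smul]
  have hr : r = (r - 1) + 1 := by have := (Fact.out : r.Prime).pos; omega
  obtain ⟨m, hm, hmx⟩ := iterate_mem B hsym h2 hM hu hu4 ρ _ hm₁ hρ (r - 1)
  rw [← hr] at hmx
  have hρr : ρ^[r] = m := by
    funext x
    rw [hmx, siegel_iterate_char B hsym h2 r hu hu4]
  obtain ⟨k, α, hk, hα⟩ := hodd (ρ^[r]) (by rw [hρr]; exact hm)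
  have hodd' : Odd (r * k) := ((Fact.out : r.Prime).odd_of_ne_two hr2).mul hk
  have h1 : ρ u = (-(B w w / 2 * B u (ψ u))) • ψ u := by
    show siegel B u (t • w) (siegel B (ψ u) w (siegel B u (t • w) u)) = _
    rw [ht]
    exact weyl_left B hsym h2 hu hu' hβ' hwu hwu' hδ
  have h2' : ρ (ψ u) = (-(B w w / 2 * B u (ψ u))⁻¹) • u := by
    show siegel B u (t • w) (siegel B (ψ u) w (siegel B u (t • w) (ψ u))) = _
    rw [ht]
    exact weyl_right B hsym h2 hu hu' hβ' hwu hwu' hδ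
  have hc0 : B w w / 2 * B u (ψ u) ≠ 0 := mul_ne_zero (div_ne_zero hδ h2) hβ'
  have hc : (-(B w w / 2 * B u (ψ u))) * (-(B w w / 2 * B u (ψ u))⁻¹) = 1 := by
    rw [neg_mul_neg, mul_inv_cancel₀ hc0]
  have h3 := iterate_odd_swap ρ hρsm h1 h2' hc hodd'
  rw [Function.iterate_mul, hα] at h3
  have h4 := congrArg (fun z => B z u) h3
  simp only [map_smul, LinearMap.smul_apply, smul_eq_mul, hu, mul_zero] at h4
  exact hβ ((mul_eq_zero.mp h4.symm).resolve_left (neg_ne_zero.mpr hc0))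

end Cfsg.Agent.Lib.Helper21.OMinusBal
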